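import Cfsg.Agent.H920.Rg.CaseC

/-!
# S3691, residual case C (symplectic groups, `q` even): numbers (helper410)

`SzC` : the size table of `PSp_{2m}(q)` (`H370.Rg.psp_ge`).
-/

set_option autoImplicit false

open Cfsg.Agent.H997.Rg

namespace Cfsg.Agent.H410.Rg

/-- the size table of `PSp_{2m}(q)` -/
def SzC (m q : ℕ) : Prop := (m = 3 → 31 < q) ∧ (m = 4 → 7 < q) ∧ (m = 5 → 3 < q) ∧ (m ≤ 6 → 2 < q)

theorem SzC.f {m f : ℕ} (h : SzC m (2 ^ f)) : (m = 3 → 5 ≤ f) ∧ (m = 4 → 3 ≤ f) ∧ (m ≤ 6 → 2 ≤ f) := by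
  obtain ⟨h3, h4, h5, h6⟩ := h
  refine ⟨fun hm => ?_, fun hm => ?_, fun hm => ?_⟩
  · have h1 := h3 hm
    by_contra hcon
    have : 2 ^ f ≤ 2 ^ 4 := Nat.pow_le_pow_right two_pos (by omega)
    omega
  · have h1 := h4 hm
    by_contra hcon
    have : 2 ^ f ≤ 2 ^ 2 := Nat.pow_le_pow_right two_pos (by omega)
    omega
  · have h1 := h6 hm
    by_contra hcon
    have : 2 ^ f ≤ 2 ^ 1 := Nat.pow_le_pow_right two_pos (by omega)
    omega

theorem fm_le {f m : ℕ} (hm : 3 ≤ m) (hS : SzC m (2 ^ f)) (hf : 1 ≤ f) : 7 ≤ f * m := by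
  obtain ⟨h3, h4, h6⟩ := hS.f
  rcases Nat.lt_or_ge m 7 with h7 | h7
  · have h1 : 2 ≤ f := h6 (by omega)
    rcases Nat.lt_or_ge m 4 with h8 | h8
    · have := h3 (by omega)
      nlinarith
    · nlinarith
  · nlinarith

theorem fm_lt {f m : ℕ} (hf : 1 ≤ f) (hm : 3 ≤ m) : f * (m - 1) + f = f * m := by
  obtain ⟨k, rfl⟩ : ∃ k, m = k + 1 := ⟨m - 1, by omega⟩
  rw [Nat.add_sub_cancel]; ring

/-- `A f < 2 ^ (f m - 1)` for `f ≥ f₁` -/
theorem grow {A m f f1 : ℕ} (hm : 2 ≤ m) (hf1 : 1 ≤ f1) (hA : A * f1 < 2 ^ (f1 * m - 1)) (h : f1 ≤ f) :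
    A * f < 2 ^ (f * m - 1) := by
  induction f, h using Nat.le_induction with
  | base => exact hA
  | succ n hn ih =>
    have h1 : (n + 1) * m - 1 = (n * m - 1) + m := by
      have : 1 ≤ n * m := Nat.mul_pos (by omega) (by omega)
      rw [add_mul]
      omega
    rw [h1, pow_add]
    have h2 : A * (n + 1) ≤ A * n * 4 := by
      have : n + 1 ≤ n * 4 := by omega
      calc A * (n + 1) ≤ A * (n * 4) := Nat.mul_le_mul_left A this
        _ = _ := by ring
    have h3 : 4 ≤ 2 ^ m := by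
      calc 4 = 2 ^ 2 := by norm_num
        _ ≤ 2 ^ m := Nat.pow_le_pow_right two_pos hm
    calc A * (n + 1) ≤ A * n * 4 := h2
      _ < 2 ^ (n * m - 1) * 4 := Nat.mul_lt_mul_of_pos_right ih (by norm_num)
      _ ≤ 2 ^ (n * m - 1) * 2 ^ m := Nat.mul_le_mul_left _ h3

theorem crudeC {f m a : ℕ} (hf : 1 ≤ f) (ha : (2 * m).factorization 2 ≤ a)
    (h : 2 ^ a * (4 * m + 2) * f < 2 ^ (f * m - 1)) :
    2 ^ f.factorization 2 * (2 ^ (2 * m).factorization 2 * (4 * m + 2)) < 2 ^ (f * m - 1) := by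
  refine lt_of_le_of_lt ?_ h
  calc 2 ^ f.factorization 2 * (2 ^ (2 * m).factorization 2 * (4 * m + 2)) ≤ f * (2 ^ a * (4 * m + 2)) :=
        Nat.mul_le_mul (pow_fac_le (by omega)) (Nat.mul_le_mul (Nat.pow_le_pow_right two_pos ha) le_rfl)
    _ = _ := by ring

theorem fac_of {m a : ℕ} (hm : m ≠ 0) (h : ¬ 2 ^ (a + 1) ∣ 2 * m) : (2 * m).factorization 2 ≤ a :=
  fac_le_of Nat.prime_two (by omega) h

theorem szc_n1 {f m : ℕ} (hf : 1 ≤ f) (hm : 3 ≤ m) (hS : SzC m (2 ^ f)) (hex : ¬ (f = 1 ∧ m = 8)) :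
    2 ^ f.factorization 2 * (2 ^ (2 * m).factorization 2 * (4 * m + 2)) < 2 ^ (f * m - 1) := by
  obtain ⟨h3, h4, h6⟩ := hS.f
  rcases Nat.lt_or_ge m 13 with hm' | hm'
  · interval_cases m
    · exact crudeC hf (fac_of (a := 1) (by norm_num) (by norm_num)) (grow (f1 := 5) (by norm_num) (by norm_num) (by norm_num) (h3 rfl))
    · exact crudeC hf (fac_of (a := 3) (by norm_num) (by norm_num)) (grow (f1 := 3) (by norm_num) (by norm_num) (by norm_num) (h4 rfl))
    · exact crudeC hf (fac_of (a := 1) (by norm_num) (by norm_num)) (grow (f1 := 2) (by norm_num) (by norm_num) (by norm_num) (h6 (by norm_num)))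
    · exact crudeC hf (fac_of (a := 2) (by norm_num) (by norm_num)) (grow (f1 := 2) (by norm_num) (by norm_num) (by norm_num) (h6 (by norm_num)))
    · exact crudeC hf (fac_of (a := 1) (by norm_num) (by norm_num)) (grow (f1 := 1) (by norm_num) (by norm_num) (by norm_num) hf)
    · have hf2 : 2 ≤ f := by
        by_contra hcon
        exact hex ⟨by omega, rfl⟩
      exact crudeC hf (fac_of (a := 4) (by norm_num) (by norm_num)) (grow (f1 := 2) (by norm_num) (by norm_num) (by norm_num) hf2)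
    · exact crudeC hf (fac_of (a := 1) (by norm_num) (by norm_num)) (grow (f1 := 1) (by norm_num) (by norm_num) (by norm_num) hf)
    · exact crudeC hf (fac_of (a := 2) (by norm_num) (by norm_num)) (grow (f1 := 1) (by norm_num) (by norm_num) (by norm_num) hf)
    · exact crudeC hf (fac_of (a := 1) (by norm_num) (by norm_num)) (grow (f1 := 1) (by norm_num) (by norm_num) (by norm_num) hf)
    · exact crudeC hf (fac_of (a := 3) (by norm_num) (by norm_num)) (grow (f1 := 1) (by norm_num) (by norm_num) (by norm_num) hf)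
  · -- m ≥ 13
    have h1 : (2 * m * (4 * m + 2)) * 1 < 2 ^ (1 * m - 1) := by
      rw [one_mul, mul_one]
      clear h3 h4 h6 hex hm hS
      induction m, hm' using Nat.le_induction with
      | base => norm_num
      | succ n hn ih =>
        obtain ⟨j, rfl⟩ : ∃ j, n = j + 1 := ⟨n - 1, by omega⟩
        rw [Nat.add_sub_cancel] at ih
        have h9 : 2 * (j + 1 + 1) * (4 * (j + 1 + 1) + 2) ≤ 2 * (2 * (j + 1) * (4 * (j + 1) + 2)) := by nlinarith
        calc _ ≤ 2 * (2 * (j + 1) * (4 * (j + 1) + 2)) := h9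
          _ < 2 * 2 ^ j := by omega
          _ = 2 ^ (j + 1 + 1 - 1) := by rw [show j + 1 + 1 - 1 = j + 1 by omega, pow_succ]; ring
    have h2 := grow (by omega) le_rfl h1 hf
    refine lt_of_le_of_lt ?_ h2
    calc 2 ^ f.factorization 2 * (2 ^ (2 * m).factorization 2 * (4 * m + 2)) ≤ f * (2 * m * (4 * m + 2)) :=
          Nat.mul_le_mul (pow_fac_le (by omega)) (Nat.mul_le_mul (pow_fac_le (by omega)) le_rfl)
      _ = _ := by ring

theorem szc_A0 {f m : ℕ} (hf : 1 ≤ f) (hm : 3 ≤ m) (hS : SzC m (2 ^ f)) :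
    (2 * m).factorization 2 + f.factorization 2 < f * m - 1 := by
  by_cases hex : f = 1 ∧ m = 8
  · obtain ⟨rfl, rfl⟩ := hex
    have h1 : (2 * 8 : ℕ).factorization 2 ≤ 4 := fac_le_of Nat.prime_two (by norm_num) (by norm_num)
    have h2 : (1 : ℕ).factorization 2 ≤ 0 := fac_le_of Nat.prime_two (by norm_num) (by norm_num)
    omega
  · apply (Nat.pow_lt_pow_iff_right (a := 2) (by norm_num)).1
    refine lt_of_le_of_lt ?_ (szc_n1 hf hm hS hex)
    rw [pow_add, mul_comm]
    exact Nat.mul_le_mul le_rfl (Nat.le_mul_of_pos_right _ (by omega))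

/-- the numbers from the order equation -/
theorem card_numC {n f T w w1 : ℕ} (hn : n ≠ 0) (hf : f ≠ 0) (hT : ¬ 2 ∣ T) (h1 : n ∣ 2 ^ w1 * T) (h2 : 2 ^ w * T ∣ n * f) :
    n.factorization 2 ≤ w1 ∧ w ≤ n.factorization 2 + f.factorization 2 ∧ n / 2 ^ n.factorization 2 ∣ T := by
  have hT0 : T ≠ 0 := by rintro rfl; exact hT (dvd_zero 2)
  have hN0 : ∀ w, 2 ^ w * T ≠ 0 := fun w => mul_ne_zero (pow_ne_zero _ two_ne_zero) hT0
  have hNf : ∀ w, (2 ^ w * T).factorization 2 = w := by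
    intro w
    rw [Nat.factorization_mul (pow_ne_zero _ two_ne_zero) hT0, Finsupp.add_apply, Nat.factorization_pow, Finsupp.smul_apply,
      Nat.prime_two.factorization_self, Nat.factorization_eq_zero_of_not_dvd hT]
    simp
  have h3 := H997.Rg.fac_le (p := 2) h1 (hN0 w1)
  have h4 := H997.Rg.fac_le (p := 2) h2 (mul_ne_zero hn hf)
  rw [hNf] at h3 h4
  rw [Nat.factorization_mul hn hf, Finsupp.add_apply] at h4
  refine ⟨h3, h4, ?_⟩
  have h5 : n / 2 ^ n.factorization 2 ∣ 2 ^ w1 * T := (Nat.div_dvd_of_dvd (Nat.ordProj_dvd _ _)).trans h1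
  exact Nat.Coprime.dvd_of_dvd_mul_left (Nat.Coprime.pow_left _ (Nat.coprime_ordCompl Nat.prime_two hn)).symm h5

/-- numbers for `⟨y⟩` normal -/
theorem num_smallC {f m w : ℕ} (hf : 1 ≤ f) (hm : 3 ≤ m) (he : Even m) (hS : SzC m (2 ^ f))
    (hw : f * m - 1 ≤ w + f.factorization 2) (h4 : 4 * w ≤ f * m + 4 * m.factorization 2) : False := by
  obtain ⟨hs3, hs4, hs6⟩ := hS.f
  have h1 := H920.Rg.two_fac_le (n := f) (by omega)
  have h2 := H920.Rg.two_fac_le (n := m) (by omega)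
  have h8 : m ≤ f * m := Nat.le_mul_of_pos_left m (by omega)
  rcases Nat.lt_or_ge m 9 with hm' | hm'
  · interval_cases m
    · revert he; decide
    · have h3 : (4 : ℕ).factorization 2 ≤ 2 := fac_le_of Nat.prime_two (by norm_num) (by norm_num)
      have := hs4 rfl
      omega
    · revert he; decide
    · have h3 : (6 : ℕ).factorization 2 ≤ 1 := fac_le_of Nat.prime_two (by norm_num) (by norm_num)
      have := hs6 (by norm_num)
      omega
    · revert he; decide
    · have h3 : (8 : ℕ).factorization 2 ≤ 3 := fac_le_of Nat.prime_two (by norm_num) (by norm_num)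
      omega
  · have h9 : 9 * f ≤ f * m := by rw [mul_comm 9]; exact Nat.mul_le_mul_left f hm'
    omega

/-- numbers for `L₂(2 ^ b)` -/
theorem num_pslC {f m b : ℕ} (hf : 1 ≤ f) (hm : 3 ≤ m) (he : Even m) (hS : SzC m (2 ^ f)) (hb : 2 * b = f * m)
    (hv : f * m - 1 ≤ b + b.factorization 2 + f.factorization 2) : False := by
  obtain ⟨hs3, hs4, hs6⟩ := hS.f
  have h3 := H920.Rg.two_fac_le (n := f) (by omega)
  have hb0 : b ≠ 0 := by
    rintro rfl
    have : 0 < f * m := by positivity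
    omega
  have h2 := H920.Rg.two_fac_le (n := b) hb0
  rcases Nat.lt_or_ge m 9 with hm' | hm'
  · interval_cases m
    · revert he; decide
    · have hb2 : b = 4 * f / 2 := by omega
      have hb3 : b = 2 * f := by omega
      have := hs4 rfl
      rw [hb3, H920.Rg.fac_two_mul' (by omega)] at hv
      omega
    · revert he; decide
    · have hb3 : b = 3 * f := by omega
      have := hs6 (by norm_num)
      rw [hb3, Nat.factorization_mul (by norm_num) (by omega), Finsupp.add_apply,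
        Nat.factorization_eq_zero_of_not_dvd (by norm_num : ¬ 2 ∣ 3)] at hv
      omega
    · revert he; decide
    · have hb3 : b = 2 * (2 * f) := by omega
      rw [hb3, H920.Rg.fac_two_mul' (by omega), H920.Rg.fac_two_mul' (by omega)] at hv
      omega
  · have h9 : 9 * f ≤ f * m := by rw [mul_comm 9]; exact Nat.mul_le_mul_left f hm'
    have h8 : m ≤ f * m := Nat.le_mul_of_pos_left m (by omega)
    omega

/-- numbers for `Sz(2 ^ b)` -/
theorem num_szC {f m b v : ℕ} (hf : 1 ≤ f) (hm : 4 ≤ m) (hb : 4 * b = f * m) (hb3 : 3 ≤ b)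
    (hvb : 2 * v ≤ b) (hv : f * m - 1 ≤ v + 2 * b + f.factorization 2) : False := by
  have h3 := H920.Rg.two_fac_le (n := f) (by omega)
  have h5 : f * 4 ≤ f * m := Nat.mul_le_mul_left f hm
  omega

end Cfsg.Agent.H410.Rg
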